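import Cfsg.Agent.H991.EP.Crude
import Cfsg.Agent.H173.EP.LineBound
import Cfsg.Agent.H419.EP.Big

/-!
# S3499: a generic engine for the layers V and VII (helper904)

* `ncard_le_sb`   : the number of two point stabilisers is at most `sb N k` (`|A| ≤ N`, `Ω(|A|) ≤ k`);
* `card_le_exact` : `|Q| ≤ N * (1 + sb N k * N)` for `|A| ∣ N`, `Ω(N) ≤ k`;
* `card_le_pow`   : `|Q| ≤ 2 ^ (L * (L + 5) / 2 + 1)` for `|A| ≤ 2 ^ L`;
* `dim_lt`        : `n < L + 4` for `|A| ≤ 2 ^ L` in the common situation `Big`.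
-/

set_option autoImplicit false

namespace Cfsg.Agent.H904.EPV

open Subgroup Cfsg.Agent.H284 Cfsg.Agent.H419.EP Cfsg.Agent.H991.EP

/-- `Ω(m) ≤ L` for `0 < m ≤ 2 ^ L`. -/
theorem Om_le_of_le {m L : ℕ} (hm : m ≠ 0) (h : m ≤ 2 ^ L) : Om m ≤ L := by
  have h1 : ∀ l : List ℕ, (∀ p ∈ l, 2 ≤ p) → 2 ^ l.length ≤ l.prod := by
    intro l
    induction l with
    | nil => intro _; simp
    | cons a l ih =>
      intro hl
      rw [List.length_cons, List.prod_cons, pow_succ, mul_comm]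
      exact Nat.mul_le_mul (hl a List.mem_cons_self) (ih fun p hp => hl p (List.mem_cons_of_mem _ hp))
  have h2 := h1 m.primeFactorsList fun p hp => (Nat.prime_of_mem_primeFactorsList hp).two_le
  rw [Nat.prod_primeFactorsList hm] at h2
  exact (Nat.pow_le_pow_iff_right (by norm_num)).1 (h2.trans h)

theorem sb_mono {n m : ℕ} (h : n ≤ m) (k : ℕ) : sb n k ≤ sb m k := by
  induction k with
  | zero => exact le_rfl
  | succ k ih => exact Nat.add_le_add ih (cb_mono h k)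

theorem sb_mono_right (n : ℕ) {k l : ℕ} (h : k ≤ l) : sb n k ≤ sb n l := by
  induction h with
  | refl => exact le_rfl
  | step _ ih => exact ih.trans (Nat.le_add_right _ _)

section

variable {Q : Type*} [Group Q] [Finite Q] {A : Subgroup Q} {Γ : Subgroup (MulAut Q)}

theorem inf_cj_lt (h : EPT A Γ) {x : Q} (hx : x ∉ A) : A ⊓ cj x A < A := by
  refine lt_of_le_of_ne inf_le_left ?_
  intro he
  apply hx
  apply h.selfnorm
  have h1 : A ≤ cj x A := by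
    have h0 : A ⊓ cj x A ≤ cj x A := inf_le_right
    rwa [he] at h0
  have h2 : cj x A = A := by
    symm
    apply Subgroup.eq_of_le_of_card_ge h1
    rw [card_cj]
  intro a ha
  have h3 : x * a * x⁻¹ ∈ cj x A := by
    rw [mem_cj]
    have : x⁻¹ * (x * a * x⁻¹) * x = a := by group
    rw [this]
    exact ha
  rw [h2] at h3
  exact h3

/-- the number of two point stabilisers -/
theorem ncard_le_sb (h : EPT A Γ) {N k : ℕ} (hA : Nat.card A ≤ N) (hk : Om (Nat.card A) ≤ k) :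
    {M : Subgroup Q | ∃ x, x ∉ A ∧ M = A ⊓ cj x A}.ncard ≤ sb N k := by
  refine le_trans ?_ (sb_mono hA k)
  refine le_trans ?_ (card_lt A k)
  apply Set.ncard_le_ncard _ (Set.toFinite _)
  rintro M ⟨x, hx, rfl⟩
  exact ⟨inf_le_left, lt_of_lt_of_le (Om_lt (inf_cj_lt h hx)) hk⟩

/-- the line bound with `μ = 2` -/
theorem index_le_of_ncard (hs : IsSimpleGroup Q) (h : EPT A Γ) {r : ℕ}
    (hr : {M : Subgroup Q | ∃ x, x ∉ A ∧ M = A ⊓ cj x A}.ncard ≤ r) : A.index ≤ 1 + r * Nat.card A := by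
  have h1 := Cfsg.Agent.H173.EP.ub1 hs h (μ := 2) (by norm_num) (by
    intro x hx
    have h2 : 1 < Nat.card (A ⊓ cj x A : Subgroup Q) :=
      lt_of_le_of_ne Nat.card_pos fun e => h.M0 x hx (Subgroup.card_eq_one.1 e.symm)
    exact h2)
  refine h1.trans (Nat.add_le_add_left ?_ _)
  exact Nat.mul_le_mul hr (Nat.mul_div_le _ _)

theorem card_le_of_ncard (hs : IsSimpleGroup Q) (h : EPT A Γ) {r N : ℕ} (hN : Nat.card A ≤ N)
    (hr : {M : Subgroup Q | ∃ x, x ∉ A ∧ M = A ⊓ cj x A}.ncard ≤ r) : Nat.card Q ≤ N * (1 + r * N) := by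
  rw [← A.card_mul_index]
  refine Nat.mul_le_mul hN ((index_le_of_ncard hs h hr).trans ?_)
  exact Nat.add_le_add_left (Nat.mul_le_mul_left _ hN) _

/-- **The exact chain bound.** -/
theorem card_le_exact (hs : IsSimpleGroup Q) (h : EPT A Γ) {N k : ℕ} (hN : N ≠ 0) (hd : Nat.card A ∣ N)
    (hk : Om N ≤ k) : Nat.card Q ≤ N * (1 + sb N k * N) := by
  have hle := Nat.le_of_dvd (Nat.pos_of_ne_zero hN) hd
  refine card_le_of_ncard hs h hle (ncard_le_sb h hle ?_)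
  obtain ⟨c, hc⟩ := hd
  have hc0 : c ≠ 0 := by
    rintro rfl
    exact hN (by rw [hc, mul_zero])
  rw [hc, Om_mul Nat.card_pos.ne' hc0] at hk
  omega

/-- `cb (2 ^ L) i ≤ 2 ^ e` for `e = i * L - i * (i - 1) / 2` -/
theorem cb_two {L : ℕ} : ∀ {i : ℕ}, i ≤ L → cb (2 ^ L) i ^ 2 * 2 ^ (i * (i - 1)) ≤ 2 ^ (2 * (i * L)) := by
  intro i
  induction i with
  | zero => intro _; simp [cb]
  | succ i ih =>
    intro hi
    have h1 := ih (by omega)
    obtain ⟨c, rfl⟩ : ∃ c, L = i + c := ⟨L - i, by omega⟩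
    have h2 : 2 ^ (i + c) / 2 ^ i = 2 ^ c := by
      rw [pow_add, Nat.mul_div_cancel_left _ (by positivity)]
    have h4 : cb (2 ^ (i + c)) (i + 1) = cb (2 ^ (i + c)) i * 2 ^ c := by
      rw [cb, h2]
    rw [h4, mul_pow, Nat.add_sub_cancel]
    have h3 : (i + 1) * i = i * (i - 1) + 2 * i := by
      rcases i with _ | i
      · rfl
      · rw [Nat.add_sub_cancel]; ring
    rw [h3]
    calc cb (2 ^ (i + c)) i ^ 2 * (2 ^ c) ^ 2 * 2 ^ (i * (i - 1) + 2 * i)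
        = (cb (2 ^ (i + c)) i ^ 2 * 2 ^ (i * (i - 1))) * (2 ^ (2 * i) * (2 ^ c) ^ 2) := by rw [pow_add]; ring
      _ ≤ 2 ^ (2 * (i * (i + c))) * (2 ^ (2 * i) * (2 ^ c) ^ 2) := Nat.mul_le_mul_right _ h1
      _ = 2 ^ (2 * ((i + 1) * (i + c))) := by
        rw [← pow_mul, ← pow_add, ← pow_add]
        congr 1
        ring

/-- the exponent of the bound for `sb` -/
theorem sb_two {L : ℕ} : ∀ {k : ℕ}, k ≤ L → sb (2 ^ L) k ^ 2 * 2 ^ (k * (k - 1)) ≤ 2 ^ (2 * (k * L)) := by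
  intro k
  induction k with
  | zero => intro _; simp [sb]
  | succ k ih =>
    intro hi
    have h1 := ih (by omega)
    have h2 := cb_two (L := L) (i := k) (by omega)
    obtain ⟨c, rfl⟩ : ∃ c, L = k + c := ⟨L - k, by omega⟩
    have hc : 1 ≤ c := by omega
    have h3 : (k + 1) * k = k * (k - 1) + 2 * k := by
      rcases k with _ | k
      · rfl
      · rw [Nat.add_sub_cancel]; ring
    rw [sb, Nat.add_sub_cancel, h3]
    have h4 : (sb (2 ^ (k + c)) k + cb (2 ^ (k + c)) k) ^ 2 ≤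
        2 * (sb (2 ^ (k + c)) k ^ 2 + cb (2 ^ (k + c)) k ^ 2) := add_sq_le
    calc (sb (2 ^ (k + c)) k + cb (2 ^ (k + c)) k) ^ 2 * 2 ^ (k * (k - 1) + 2 * k)
        ≤ 2 * (sb (2 ^ (k + c)) k ^ 2 + cb (2 ^ (k + c)) k ^ 2) * 2 ^ (k * (k - 1) + 2 * k) :=
          Nat.mul_le_mul_right _ h4
      _ = 2 * (sb (2 ^ (k + c)) k ^ 2 * 2 ^ (k * (k - 1)) + cb (2 ^ (k + c)) k ^ 2 * 2 ^ (k * (k - 1))) * 2 ^ (2 * k) := by
          rw [pow_add]; ring
      _ ≤ 2 * (2 ^ (2 * (k * (k + c))) + 2 ^ (2 * (k * (k + c)))) * 2 ^ (2 * k) :=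
          Nat.mul_le_mul_right _ (Nat.mul_le_mul_left _ (Nat.add_le_add h1 h2))
      _ = 2 ^ (2 * (k * (k + c)) + 2 * k + 2) := by rw [pow_add, pow_add]; ring
      _ ≤ 2 ^ (2 * ((k + 1) * (k + c))) := Nat.pow_le_pow_right (by norm_num) (by nlinarith)

theorem sb_two_le (L : ℕ) : sb (2 ^ L) L ≤ 2 ^ (L * (L + 1) / 2) := by
  have h1 := sb_two (le_refl L)
  have hdiv : L * (L + 1) / 2 * 2 = L * (L + 1) := Nat.div_mul_cancel (Nat.even_mul_succ_self L).two_dvd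
  apply (Nat.pow_le_pow_iff_left (n := 2) (by norm_num)).1
  rw [← pow_mul, hdiv]
  have h2 : 2 ^ (2 * (L * L)) = 2 ^ (L * (L + 1)) * 2 ^ (L * (L - 1)) := by
    rw [← pow_add]
    congr 1
    rcases L with _ | L
    · rfl
    · rw [Nat.add_sub_cancel]; ring
  rw [h2] at h1
  exact Nat.le_of_mul_le_mul_right h1 (by positivity)

/-- **The bound for the order** -/
theorem card_le_pow (hs : IsSimpleGroup Q) (h : EPT A Γ) {L : ℕ} (hA : Nat.card A ≤ 2 ^ L) :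
    Nat.card Q ≤ 2 ^ (L * (L + 5) / 2 + 1) := by
  have h1 := card_le_of_ncard hs h hA (ncard_le_sb h hA (Om_le_of_le Nat.card_pos.ne' hA))
  refine h1.trans ?_
  have h2 := sb_two_le L
  have hdiv : L * (L + 1) / 2 * 2 = L * (L + 1) := Nat.div_mul_cancel (Nat.even_mul_succ_self L).two_dvd
  have h3 : L * (L + 5) / 2 = L * (L + 1) / 2 + 2 * L := by
    have : L * (L + 5) = L * (L + 1) + 2 * (2 * L) := by ring
    rw [this, Nat.add_mul_div_left _ _ (by norm_num)]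
  have h4 : 1 ≤ 2 ^ (L * (L + 1) / 2) * 2 ^ L := Nat.one_le_iff_ne_zero.2 (by positivity)
  calc 2 ^ L * (1 + sb (2 ^ L) L * 2 ^ L) ≤ 2 ^ L * (1 + 2 ^ (L * (L + 1) / 2) * 2 ^ L) :=
        Nat.mul_le_mul_left _ (Nat.add_le_add_left (Nat.mul_le_mul_right _ h2) _)
    _ ≤ 2 ^ L * (2 ^ (L * (L + 1) / 2) * 2 ^ L + 2 ^ (L * (L + 1) / 2) * 2 ^ L) :=
        Nat.mul_le_mul_left _ (Nat.add_le_add_right h4 _)
    _ = 2 ^ (L * (L + 5) / 2 + 1) := by
      rw [h3]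
      ring

end

section

variable {Q : Type} [Group Q] [Finite Q] {A : Subgroup Q} {Γ : Subgroup (MulAut Q)} {ι : Type} [Fintype ι]
    [DecidableEq ι] {F : Type} [Field F] [Fintype F] {S P : Subgroup (GL ι F)}

/-- **The generic engine**: `n < L + 4` if `|A| ≤ 2 ^ L`. -/
theorem dim_lt (b : Big A Γ S P) {L : ℕ} (hA : Nat.card A ≤ 2 ^ L) : Fintype.card ι < L + 4 := by
  by_contra hn
  push Not at hn
  have h1 := b.ord_two hn
  have h2 := card_le_pow b.simple b.ept hA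
  have h3 : 2 ^ ((L + 4) * (L + 4 - 1) / 2) ≤ 2 ^ (L * (L + 5) / 2 + 4) := by
    refine h1.trans ((Nat.mul_le_mul_left 8 h2).trans (le_of_eq ?_))
    rw [show (8 : ℕ) = 2 ^ 3 by norm_num, ← pow_add]
    congr 1
    omega
  have h4 := (Nat.pow_le_pow_iff_right (by norm_num)).1 h3
  have h5 : (L + 4) * (L + 4 - 1) / 2 = L * (L + 5) / 2 + (L + 6) := by
    have : (L + 4) * (L + 4 - 1) = L * (L + 5) + 2 * (L + 6) := by
      have : L + 4 - 1 = L + 3 := by omega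
      rw [this]; ring
    rw [this, Nat.add_mul_div_left _ _ (by norm_num)]
  rw [h5] at h4
  omega

/-- with the socle: `n < L + 4` if `|Aut (socle P)| ≤ 2 ^ L` -/
theorem dim_lt_aut (b : Big A Γ S P) {T : Type} [Group T] [Finite T] (e : socle P ≃* T) {L : ℕ}
    (hA : Nat.card (MulAut T) ≤ 2 ^ L) : Fintype.card ι < L + 4 :=
  dim_lt b ((b.hasSoc' e).card_le.trans hA)

/-- the order bound for a given lower bound `q₀ ≤ |F|` -/
theorem ord_pow (b : Big A Γ S P) {q₀ n₀ : ℕ} (hq0 : 0 < q₀) (hq : q₀ ≤ Fintype.card F) (hn : n₀ ≤ Fintype.card ι) :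
    q₀ ^ (n₀ * (n₀ - 1) / 2) ≤ 8 * Nat.card Q := by
  refine le_trans ?_ b.ord
  refine le_trans (Nat.pow_le_pow_left hq _) (Nat.pow_le_pow_right (by omega) ?_)
  apply Nat.div_le_div_right
  exact Nat.mul_le_mul hn (by omega)

/-- contradiction from an upper bound of the order -/
theorem false_of_card (b : Big A Γ S P) {q₀ n₀ X : ℕ} (hq0 : 0 < q₀) (hq : q₀ ≤ Fintype.card F)
    (hn : n₀ ≤ Fintype.card ι) (hX : Nat.card Q ≤ X) (hlt : 8 * X < q₀ ^ (n₀ * (n₀ - 1) / 2)) : False :=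
  absurd ((ord_pow b hq0 hq hn).trans (Nat.mul_le_mul_left 8 hX)) (not_le.2 hlt)

/-- the exact chain bound in the situation `Big` -/
theorem false_of_exact (b : Big A Γ S P) {q₀ n₀ N k : ℕ} (hq0 : 0 < q₀) (hq : q₀ ≤ Fintype.card F)
    (hn : n₀ ≤ Fintype.card ι) (hN : N ≠ 0) (hd : Nat.card A ∣ N) (hk : Om N ≤ k)
    (hlt : 8 * (N * (1 + sb N k * N)) < q₀ ^ (n₀ * (n₀ - 1) / 2)) : False :=
  false_of_card b hq0 hq hn (card_le_exact b.simple b.ept hN hd hk) hlt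

end

end Cfsg.Agent.H904.EPV
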