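import Cfsg.Agent.H904.EPV.EThree
import Cfsg.Agent.H414.EPV.Kill
import Cfsg.Agent.H414.EPV.ToFin
import Cfsg.Agent.H163.PG.Ord
import Cfsg.Agent.H175.BdSL
import Cfsg.Agent.S2086
import Cfsg.Agent.H528.EP.CrossL2

/-!
# S3499-V: the row `CrossPSL` (helper904)

* `cross_ln` : `soc(A) ≅ PSL_d(s)`, `d ≥ 3`, in cross characteristic, dimension at least 13;
* `crossPSL` : the target `CrossPSL` (with `cross_l2` of helper528 for `d = 2`).
-/

set_option autoImplicit false

namespace Cfsg.Agent.H904.EPV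

open Subgroup Cfsg Cfsg.Agent.H284 Cfsg.Agent.H419.EP Cfsg.Agent.H59.EP Cfsg.Agent.H528.EP Cfsg.Agent.H912.Bd
  Cfsg.Agent.H414.EPV Finset
open scoped MatrixGroups

/-! ### orders -/

section order

variable {K : Type} [Field K] [Fintype K]

theorem card_aut_psl {p f d : ℕ} (hp : p.Prime) (hf : 1 ≤ f) (hK : Fintype.card K = p ^ f) (hd : 3 ≤ d) :
    Nat.card (MulAut (Matrix.ProjectiveSpecialLinearGroup (Fin d) K)) =
      2 * f * (Fintype.card K ^ (d * (d - 1) / 2) * ∏ i ∈ range (d - 1), (Fintype.card K ^ (i + 2) - 1)) := by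
  have : Fact p.Prime := ⟨hp⟩
  rw [Cfsg.Agent.S0813.result p f hf hK d (by omega) (by omega), if_neg (by omega),
    Cfsg.Agent.H163.PG.card_pgl (by omega), Cfsg.Agent.H163.PG.card_psl (by omega)]

theorem prod_le (s m : ℕ) : ∏ i ∈ range m, (s ^ (i + 2) - 1) ≤ s ^ (m * (m + 3) / 2) := by
  induction m with
  | zero => simp
  | succ m ih =>
    rw [Finset.prod_range_succ]
    have h1 : (m + 1) * (m + 1 + 3) / 2 = m * (m + 3) / 2 + (m + 2) := by
      have : (m + 1) * (m + 1 + 3) = m * (m + 3) + 2 * (m + 2) := by ring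
      rw [this, Nat.add_mul_div_left _ _ (by norm_num)]
    rw [h1, pow_add s (m * (m + 3) / 2) (m + 2)]
    exact Nat.mul_le_mul ih (Nat.sub_le _ _)

theorem card_aut_psl_le {d : ℕ} (hd : 3 ≤ d) :
    Nat.card (MulAut (Matrix.ProjectiveSpecialLinearGroup (Fin d) K)) ≤ Fintype.card K ^ (d ^ 2) := by
  obtain ⟨p, hcK⟩ := CharP.exists K
  obtain ⟨k, hp, hK⟩ := FiniteField.card K p
  obtain ⟨f, hf, hkf⟩ : ∃ f : ℕ, 1 ≤ f ∧ (k : ℕ) = f := ⟨k, k.2, rfl⟩
  rw [hkf] at hK
  rw [card_aut_psl hp hf hK hd]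
  have hf2 : 2 * f ≤ Fintype.card K := by
    have h3 : 2 * f ≤ 2 ^ f := by
      obtain ⟨g, rfl⟩ : ∃ g, f = g + 1 := ⟨f - 1, by omega⟩
      have := Nat.lt_two_pow_self (n := g)
      rw [pow_succ]
      omega
    rw [hK]
    exact h3.trans (Nat.pow_le_pow_left hp.two_le f)
  obtain ⟨m, rfl⟩ : ∃ m, d = m + 1 := ⟨d - 1, by omega⟩
  have h1 := prod_le (Fintype.card K) m
  rw [Nat.add_sub_cancel]
  have he : (m + 1) ^ 2 = 1 + ((m + 1) * m / 2 + m * (m + 3) / 2) := by
    have e1 : m * (m + 3) = m * (m + 1) + 2 * m := by ring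
    rw [e1, Nat.add_mul_div_left _ _ (by norm_num), mul_comm (m + 1) m]
    have e2 : m * (m + 1) / 2 * 2 = m * (m + 1) := Nat.div_mul_cancel (Nat.even_mul_succ_self m).two_dvd
    nlinarith
  rw [he, pow_add, pow_one, pow_add]
  exact Nat.mul_le_mul hf2 (Nat.mul_le_mul_left _ h1)

end order

/-! ### numbers -/

theorem two_pow_half {q : ℕ} (hq : 6 ≤ q) : q ≤ 2 ^ (q / 2) := by
  obtain ⟨k, hk⟩ : ∃ k, q / 2 = k + 3 := ⟨q / 2 - 3, by omega⟩
  have h1 : q ≤ 2 * (k + 3) + 1 := by omega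
  rw [hk]
  refine h1.trans ?_
  clear h1 hk hq
  induction k with
  | zero => norm_num
  | succ k ih =>
    have e : k + 1 + 3 = (k + 3) + 1 := by omega
    rw [e, pow_succ]
    have h2 : 1 ≤ 2 ^ (k + 3) := Nat.one_le_two_pow
    omega

theorem num_step {q t d : ℕ} (hq : 2 ≤ q) {d0 : ℕ} (h0 : t * d0 ^ 2 + 4 ≤ q ^ (d0 - 1)) (h3 : 3 ≤ d0)
    (hd : d0 ≤ d) : t * d ^ 2 + 4 ≤ q ^ (d - 1) := by
  induction d, hd using Nat.le_induction with
  | base => exact h0
  | succ d hd ih =>
    have h1 : 3 ≤ d := h3.trans hd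
    have e : d + 1 - 1 = (d - 1) + 1 := by omega
    rw [e, pow_succ q]
    have h2 : 2 * q ^ (d - 1) ≤ q ^ (d - 1) * q := by
      rw [mul_comm 2]
      exact Nat.mul_le_mul_left _ hq
    have h4 : t * (d + 1) ^ 2 ≤ 2 * (t * d ^ 2) := by
      have : (d + 1) ^ 2 ≤ 2 * d ^ 2 := by nlinarith
      calc t * (d + 1) ^ 2 ≤ t * (2 * d ^ 2) := Nat.mul_le_mul_left _ this
        _ = 2 * (t * d ^ 2) := by ring
    omega

theorem psl_num {d q : ℕ} (hq : 2 ≤ q) (hd : 3 ≤ d)
    (h : ¬ (q = 2 ∧ d ≤ 6)) (h' : ¬ (q = 3 ∧ d ≤ 4)) (h'' : ¬ (q = 4 ∧ d = 3)) (h5 : ¬ (q = 5 ∧ d = 3)) :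
    ∃ t, q ≤ 2 ^ t ∧ t * d ^ 2 + 4 ≤ q ^ (d - 1) := by
  rcases Nat.lt_or_ge q 6 with h6 | h6
  · interval_cases q
    · exact ⟨1, by norm_num, num_step (d0 := 7) (by norm_num) (by norm_num) (by norm_num) (by omega)⟩
    · exact ⟨2, by norm_num, num_step (d0 := 5) (by norm_num) (by norm_num) (by norm_num) (by omega)⟩
    · exact ⟨2, by norm_num, num_step (d0 := 4) (by norm_num) (by norm_num) (by norm_num) (by omega)⟩
    · exact ⟨3, by norm_num, num_step (d0 := 4) (by norm_num) (by norm_num) (by norm_num) (by omega)⟩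
  · refine ⟨q / 2, two_pow_half h6, num_step (d0 := 3) hq ?_ (by norm_num) hd⟩
    have h2 : 2 * (q / 2) ≤ q := Nat.mul_div_le _ _
    have e2 : (3 : ℕ) - 1 = 2 := rfl
    rw [e2]
    nlinarith

/-! ### the row -/

section

variable {Q : Type} [Group Q] [Finite Q] {A : Subgroup Q} {Γ : Subgroup (MulAut Q)} {ι : Type} [Fintype ι]
    [DecidableEq ι] {F : Type} [Field F] [Fintype F] {S P : Subgroup (GL ι F)} {K : Type} [Field K] [Fintype K]

theorem deg_psl (b : Big A Γ S P) {d r : ℕ} (hd : 3 ≤ d)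
    (hexc : (d, Fintype.card K) ∉ ({(2, 4), (2, 9), (3, 2), (3, 4), (4, 2)} : Set (ℕ × ℕ))) (hr : r.Prime)
    [CharP K r] (hrF : (r : F) ≠ 0) (e : socle P ≃* Matrix.ProjectiveSpecialLinearGroup (Fin d) K) :
    Fintype.card K ^ (d - 1) - 1 ≤ Fintype.card ι := by
  have hrq : r ∣ Fintype.card K := by
    obtain ⟨k, -, hk⟩ := FiniteField.card K r
    rw [hk]
    exact dvd_pow_self r k.ne_zero
  refine Cfsg.Agent.H175.BdSL.bd_psl (F := F) hr rfl hd hrF
    (MulEquiv.refl (Matrix.ProjectiveSpecialLinearGroup (Fin d) K)) _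
    (pr_of_noR (noR_cyclic (S2086.result (F := K) rfl d (by omega) (by omega) hexc) ?_) P b.core.perfect e)
  rw [Nat.coprime_comm, Nat.Prime.coprime_iff_not_dvd hr]
  intro h
  have h1 : r ∣ Fintype.card K - 1 := h.trans (Nat.gcd_dvd_right _ _)
  have h2 : 1 < Fintype.card K := Fintype.one_lt_card
  have h3 := (Nat.dvd_sub_iff_right (by omega : 1 ≤ Fintype.card K) hrq).1 h1
  exact hr.one_lt.ne' (Nat.dvd_one.1 h3)

theorem cross_ln (hg : TwoGen.{0}) (b : Big A Γ S P) {d : ℕ} (hd : 3 ≤ d) (hc : ringChar F ≠ ringChar K)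
    (e : socle P ≃* Matrix.ProjectiveSpecialLinearGroup (Fin d) K) : False := by
  obtain ⟨p, hcK⟩ := CharP.exists K
  obtain ⟨k, hp, hK⟩ := FiniteField.card K p
  obtain ⟨f, hf, hkf⟩ : ∃ f : ℕ, 1 ≤ f ∧ (k : ℕ) = f := ⟨k, k.2, rfl⟩
  rw [hkf] at hK
  have hpF : (p : F) ≠ 0 := by
    intro h0
    have h1 : ringChar F ∣ p := ringChar.dvd h0
    rcases (Nat.dvd_prime hp).1 h1 with h2 | h2
    · exact CharP.ringChar_ne_one h2
    · exact hc (h2.trans (ringChar.eq K p).symm)
  have hq2 : 2 ≤ Fintype.card K := Fintype.one_lt_card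
  have h13 := b.thirteen
  have hpdvd : p ∣ Fintype.card K := by rw [hK]; exact dvd_pow_self p (by omega)
  by_cases c2 : Fintype.card K = 2 ∧ d ≤ 6
  · obtain ⟨hK2, hd6⟩ := c2
    have hp2 : p = 2 := (Nat.prime_dvd_prime_iff_eq hp Nat.prime_two).1 (hK2 ▸ hpdvd)
    subst hp2
    have hf1 : f = 1 := by
      rw [hK2] at hK
      have := Nat.pow_right_injective (le_refl 2) (show 2 ^ 1 = 2 ^ f by rw [pow_one]; exact hK)
      exact this.symm
    subst hf1
    have hF3 := three_le_card F hpF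
    have hcard := card_aut_psl (K := K) hp hf hK hd
    rw [hK2] at hcard
    interval_cases d
    · exact kill b hg e (hcard.trans (by decide +kernel : _ = 336)) [(2, 4), (3, 1), (7, 1)] (by decide +kernel)
        (by decide +kernel) (by decide +kernel) (by norm_num) (a := 3) (m := 13) (by norm_num) hF3 h13
        (by decide +kernel)
    · exact kill b hg e (hcard.trans (by decide +kernel : _ = 40320)) [(2, 7), (3, 2), (5, 1), (7, 1)]
        (by decide +kernel) (by decide +kernel) (by decide +kernel) (by norm_num) (a := 3) (m := 13) (by norm_num)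
        hF3 h13 (by decide +kernel)
    · exact kill b hg e (hcard.trans (by decide +kernel : _ = 19998720)) [(2, 11), (3, 2), (5, 1), (7, 1), (31, 1)]
        (by decide +kernel) (by decide +kernel) (by decide +kernel) (by norm_num) (a := 3) (m := 13) (by norm_num)
        hF3 h13 (by decide +kernel)
    · have hn := deg_psl b hd (by
        rw [hK2]
        simp only [Set.mem_insert_iff, Set.mem_singleton_iff, Prod.mk.injEq]
        omega) hp hpF e
      rw [hK2] at hn
      exact kill b hg e (hcard.trans (by decide +kernel : _ = 40317419520))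
        [(2, 16), (3, 4), (5, 1), (7, 2), (31, 1)]
        (by decide +kernel) (by decide +kernel) (by decide +kernel) (by norm_num) (a := 3) (m := 31) (by norm_num)
        hF3 hn (by decide +kernel)
  by_cases c3 : Fintype.card K = 3 ∧ d ≤ 4
  · obtain ⟨hK3, hd4⟩ := c3
    have hp3 : p = 3 := (Nat.prime_dvd_prime_iff_eq hp Nat.prime_three).1 (hK3 ▸ hpdvd)
    subst hp3
    have hf1 : f = 1 := by
      rw [hK3] at hK
      have := Nat.pow_right_injective (by norm_num : 2 ≤ 3) (show 3 ^ 1 = 3 ^ f by rw [pow_one]; exact hK)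
      exact this.symm
    subst hf1
    have hcard := card_aut_psl (K := K) hp hf hK hd
    rw [hK3] at hcard
    interval_cases d
    · exact kill b hg e (hcard.trans (by decide +kernel : _ = 11232)) [(2, 5), (3, 3), (13, 1)] (by decide +kernel)
        (by decide +kernel) (by decide +kernel) (by norm_num) (a := 2) (m := 13) (by norm_num) b.two_le h13
        (by decide +kernel)
    · have hn := deg_psl b hd (by
        rw [hK3]
        simp only [Set.mem_insert_iff, Set.mem_singleton_iff, Prod.mk.injEq]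
        omega) hp hpF e
      rw [hK3] at hn
      exact kill b hg e (hcard.trans (by decide +kernel : _ = 24261120)) [(2, 9), (3, 6), (5, 1), (13, 1)]
        (by decide +kernel) (by decide +kernel) (by decide +kernel) (by norm_num) (a := 2) (m := 26) (by norm_num)
        b.two_le hn (by decide +kernel)
  by_cases c4 : Fintype.card K = 4 ∧ d = 3
  · obtain ⟨hK4, rfl⟩ := c4
    have hp2 : p = 2 := by
      have h1 : p ∣ 2 ^ 2 := by rw [hK4] at hpdvd; exact hpdvd
      exact (Nat.prime_dvd_prime_iff_eq hp Nat.prime_two).1 (hp.dvd_of_dvd_pow h1)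
    subst hp2
    have hf1 : f = 2 := by
      rw [hK4] at hK
      have := Nat.pow_right_injective (le_refl 2) (show 2 ^ 2 = 2 ^ f by rw [← hK])
      exact this.symm
    subst hf1
    have hcard := card_aut_psl (K := K) hp hf hK hd
    rw [hK4] at hcard
    exact kill b hg e (hcard.trans (by decide +kernel : _ = 241920)) [(2, 8), (3, 3), (5, 1), (7, 1)]
      (by decide +kernel) (by decide +kernel) (by decide +kernel) (by norm_num) (a := 3) (m := 13) (by norm_num)
      (three_le_card F hpF) h13 (by decide +kernel)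
  by_cases c5 : Fintype.card K = 5 ∧ d = 3
  · obtain ⟨hK5, rfl⟩ := c5
    have hp5 : p = 5 := (Nat.prime_dvd_prime_iff_eq hp Nat.prime_five).1 (hK5 ▸ hpdvd)
    subst hp5
    have hf1 : f = 1 := by
      rw [hK5] at hK
      have := Nat.pow_right_injective (by norm_num : 2 ≤ 5) (show 5 ^ 1 = 5 ^ f by rw [pow_one]; exact hK)
      exact this.symm
    subst hf1
    have hcard := card_aut_psl (K := K) hp hf hK hd
    rw [hK5] at hcard
    have hn := deg_psl b hd (by
      rw [hK5]
      simp only [Set.mem_insert_iff, Set.mem_singleton_iff, Prod.mk.injEq]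
      omega) hp hpF e
    rw [hK5] at hn
    exact kill b hg e (hcard.trans (by decide +kernel : _ = 744000)) [(2, 6), (3, 1), (5, 3), (31, 1)]
      (by decide +kernel) (by decide +kernel) (by decide +kernel) (by norm_num) (a := 2) (m := 24) (by norm_num)
      b.two_le hn (by decide +kernel)
  -- the generic case
  obtain ⟨t, ht, ht2⟩ := psl_num hq2 hd c2 c3 c4 c5
  have hn := deg_psl b hd (by
    simp only [Set.mem_insert_iff, Set.mem_singleton_iff, Prod.mk.injEq]
    omega) hp hpF e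
  refine eThree b (t * d ^ 2) ?_ (by omega)
  refine ((b.hasSoc' e).card_le.trans (card_aut_psl_le hd)).trans ?_
  rw [pow_mul]
  exact Nat.pow_le_pow_left ht _

end

/-- **The row `CrossPSL`.** -/
theorem crossPSL (hg : TwoGen.{0}) : CrossPSL := by
  intro Q _ _ A Γ ι _ _ F _ _ S P b K _ _ d hd h2 hc ⟨e⟩
  rcases Nat.lt_or_ge 2 d with h3 | h3
  · exact cross_ln hg b h3 hc e
  · obtain rfl : d = 2 := by omega
    exact cross_l2 hg b (h2 rfl) hc e

end Cfsg.Agent.H904.EPV
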